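import Cfsg.Agent.Helper28.G2.Root
import Cfsg.Agent.Helper28.SZ.Pres
import Cfsg.Agent.Helper28.SZQ1.Cert
import Cfsg.Agent.Helper28.TCH
import Cfsg.Agent.Helper28.CoxG

/-!
# The group presented on `a, …, f` maps to the Chevalley group of type `G₂` over the field with four elements (helper28; generated)

The six generators go to products of root elements; the matrices of these products are computed by
following the basis vectors, and the relators are checked on the matrices in the same way.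
-/

set_option autoImplicit false

namespace Cfsg.Agent.Helper28.G2

open Cfsg.Agent.Helper28 Matrix

/-- the general linear group -/
abbrev GLG : Type := Matrix.GeneralLinearGroup I14 GF4

theorem xsqChk : allBelow 37 (fun k => basisChk xLk [k, k]) = true := by decide +kernel

theorem xsq (k : ℕ) : toM (xLk k) * toM (xLk k) = 1 := by
  have key : ∀ k, k < 37 → toM (xLk k) * toM (xLk k) = 1 := by
    intro k hk
    have h := prod_eq_one xLk xLk_length [k, k] ((allBelow_iff _ _).mp xsqChk k hk)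
    rw [List.map_cons, List.map_cons, List.map_nil, List.prod_cons, List.prod_cons, List.prod_nil, mul_one] at h
    exact h
  by_cases hk : k < 37
  · exact key k hk
  · rw [xLk_big k (by omega), ← xLk_big 36 (le_refl _)]
    exact key 36 (by norm_num)

/-- the root elements, as invertible matrices -/
def xU (k : ℕ) : GLG := ⟨toM (xLk k), toM (xLk k), xsq k, xsq k⟩

theorem xU_mem (k : ℕ) : xU k ∈ Cfsg.Lie.chevG2.group GF4 := by
  by_cases hk : k < 36
  · obtain ⟨r, t, h⟩ := xLk_root k hk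
    exact Subgroup.subset_closure ⟨r, t, h⟩
  · have h1 : xU k = 1 := by
      apply Units.ext
      show toM (xLk k) = 1
      rw [xLk_big k (by omega), toM_idL]
    rw [h1]
    exact one_mem _

/-- the words in the root elements for the generators -/
def wordOf : Cfsg.Agent.Helper28.SZ.Q1.Gen → List ℕ
  | .a => [35, 18, 15, 18, 21, 12, 21, 18, 15, 18, 23, 13, 23, 19, 17, 19, 35]
  | .b => [18, 15, 18, 21, 12, 21, 18, 15, 18, 22, 14, 22, 20, 16, 20]
  | .c => [34, 23, 18, 18, 15, 18, 21, 12, 21, 18, 15, 18, 22, 14, 22, 20, 16, 20, 18, 23, 34]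
  | .d => [21, 12, 21]
  | .e => [23, 13, 23]
  | .f => [34, 18, 15, 18, 21, 12, 21, 18, 15, 18, 22, 14, 22, 20, 16, 20, 34]

/-- the matrices of the generators -/
def matOf : Cfsg.Agent.Helper28.SZ.Q1.Gen → List (List GF4)
  | .a => [[.o, .z, .z, .z, .z, .z, .z, .z, .z, .z, .z, .z, .z, .w], [.z, .o, .z, .z, .z, .z, .z, .z, .z, .z, .z, .z, .z, .z], [.z, .w, .o, .z, .z, .z, .z, .z, .z, .z, .z, .z, .z, .v], [.z, .z, .z, .o, .z, .z, .z, .z, .w, .z, .z, .z, .z, .z], [.z, .z, .z, .z, .o, .z, .z, .z, .z, .z, .w, .z, .z, .z], [.z, .z, .z, .z, .z, .o, .z, .z, .z, .z, .z, .w, .z, .z], [.z, .z, .z, .z, .z, .z, .o, .z, .z, .z, .z, .z, .z, .z], [.z, .z, .z, .z, .z, .z, .z, .o, .z, .z, .z, .z, .w, .z], [.z, .z, .z, .z, .z, .z, .z, .z, .o, .z, .z, .z, .z, .z], [.z, .z, .z, .z, .z, .z, .z, .z, .z, .o, .z, .z, .z, .z], [.z, .z, .z, .z, .z, .z, .z, .z, .z, .z, .o, .z, .z, .z], [.z, .z, .z, .z, .z, .z, .z, .z, .z, .z, .z, .o,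 .z, .z], [.z, .z, .z, .z, .z, .z, .z, .z, .z, .z, .z, .z, .o, .z], [.z, .z, .z, .z, .z, .z, .z, .z, .z, .z, .z, .z, .z, .o]]
  | .b => [[.o, .o, .z, .z, .z, .z, .z, .z, .z, .z, .z, .z, .z, .z], [.z, .o, .z, .z, .z, .z, .z, .z, .z, .z, .z, .z, .z, .z], [.z, .z, .z, .z, .z, .z, .z, .z, .z, .z, .z, .z, .z, .w], [.z, .z, .z, .z, .z, .z, .z, .z, .v, .z, .z, .z, .z, .z], [.z, .z, .z, .z, .z, .z, .z, .z, .z, .z, .v, .z, .z, .z], [.z, .z, .z, .z, .z, .z, .z, .z, .z, .z, .z, .v, .z, .z], [.z, .z, .z, .z, .z, .z, .o, .z, .z, .z, .z, .z, .z, .z], [.z, .z, .z, .z, .z, .z, .z, .z, .z, .z, .z, .z, .v, .z], [.z, .z, .z, .w, .z, .z, .z, .z, .z, .z, .z, .z, .z, .z], [.z, .z, .z, .z, .z, .z, .z, .z, .z, .o, .z, .z, .z, .z], [.z, .z, .z, .z, .w, .z, .z, .z, .z, .z, .z, .z, .z, .z], [.z, .z, .z, .z, .z, .w, .z, .z, .z, .z, .z, .z, .z, .z], [.z, .z, .z, .z, .z, .z, .z, .w, .z, .z, .z, .z, .z, .z], [.z, .z, .v, .z, .z, .z, .z,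 .z, .z, .z, .z, .z, .z, .z]]
  | .c => [[.o, .z, .z, .z, .z, .z, .z, .z, .z, .z, .o, .z, .v, .v], [.z, .o, .z, .z, .z, .z, .z, .z, .v, .z, .o, .w, .v, .z], [.z, .v, .o, .v, .o, .w, .z, .v, .w, .z, .v, .o, .w, .w], [.v, .v, .z, .o, .z, .z, .w, .z, .o, .z, .v, .o, .w, .w], [.w, .z, .z, .z, .o, .z, .z, .z, .o, .v, .o, .v, .o, .o], [.o, .o, .z, .z, .z, .o, .v, .z, .v, .z, .o, .o, .v, .v], [.z, .z, .z, .z, .z, .z, .o, .z, .o, .z, .z, .v, .z, .z], [.v, .z, .z, .z, .z, .z, .z, .o, .w, .o, .v, .o, .o, .w], [.z, .z, .z, .z, .z, .z, .z, .z, .o, .z, .z, .z, .z, .v], [.z, .z, .z, .z, .z, .z, .z, .z, .z, .o, .v, .z, .w, .z], [.z, .z, .z, .z, .z, .z, .z, .z, .z, .z, .o, .z, .z, .w], [.z, .z, .z, .z, .z, .z, .z, .z, .z, .z, .z, .o, .z, .o], [.z, .z, .z, .z, .z, .z, .z, .z, .z, .z, .z, .z, .o, .v], [.z, .z, .z, .z, .z, .z, .z, .z, .z, .z, .z, .z, .z, .o]]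
  | .d => [[.o, .o, .z, .z, .z, .z, .z, .z, .z, .z, .z, .z, .z, .z], [.z, .o, .z, .z, .z, .z, .z, .z, .z, .z, .z, .z, .z, .z], [.z, .z, .o, .z, .z, .z, .z, .z, .z, .z, .z, .z, .z, .z], [.z, .z, .z, .z, .z, .z, .z, .o, .z, .z, .z, .z, .z, .z], [.z, .z, .z, .z, .z, .o, .z, .z, .z, .z, .z, .z, .z, .z], [.z, .z, .z, .z, .o, .z, .z, .z, .z, .z, .z, .z, .z, .z], [.z, .z, .z, .z, .z, .z, .z, .z, .z, .o, .z, .z, .z, .z], [.z, .z, .z, .o, .z, .z, .z, .z, .z, .z, .z, .z, .z, .z], [.z, .z, .z, .z, .z, .z, .z, .z, .z, .z, .z, .z, .o, .z], [.z, .z, .z, .z, .z, .z, .o, .z, .z, .z, .z, .z, .z, .z], [.z, .z, .z, .z, .z, .z, .z, .z, .z, .z, .z, .o, .z, .z], [.z, .z, .z, .z, .z, .z, .z, .z, .z, .z, .o, .z, .z, .z], [.z, .z, .z, .z, .z, .z, .z, .z, .o, .z, .z, .z, .z, .z], [.z, .z, .z, .z, .z, .z, .z, .z, .z, .z, .z, .z, .z, .o]]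
  | .e => [[.o, .o, .z, .z, .z, .z, .z, .z, .z, .z, .z, .z, .z, .z], [.z, .o, .z, .z, .z, .z, .z, .z, .z, .z, .z, .z, .z, .z], [.z, .z, .o, .z, .z, .z, .z, .z, .z, .z, .z, .z, .z, .z], [.z, .z, .z, .z, .z, .z, .z, .o, .z, .z, .z, .z, .z, .z], [.z, .z, .z, .z, .z, .w, .z, .z, .z, .z, .z, .z, .z, .z], [.z, .z, .z, .z, .v, .z, .z, .z, .z, .z, .z, .z, .z, .z], [.z, .z, .z, .z, .z, .z, .z, .z, .z, .v, .z, .z, .z, .z], [.z, .z, .z, .o, .z, .z, .z, .z, .z, .z, .z, .z, .z, .z], [.z, .z, .z, .z, .z, .z, .z, .z, .z, .z, .z, .z, .o, .z], [.z, .z, .z, .z, .z, .z, .w, .z, .z, .z, .z, .z, .z, .z], [.z, .z, .z, .z, .z, .z, .z, .z, .z, .z, .z, .w, .z, .z], [.z, .z, .z, .z, .z, .z, .z, .z, .z, .z, .v, .z, .z, .z], [.z, .z, .z, .z, .z, .z, .z, .z, .o, .z, .z, .z, .z, .z], [.z, .z, .z, .z, .z, .z, .z, .z, .z, .z, .z, .z, .z, .o]]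
  | .f => [[.o, .z, .z, .z, .z, .z, .z, .z, .z, .z, .z, .z, .z, .v], [.z, .o, .z, .z, .z, .z, .z, .z, .z, .z, .z, .z, .z, .z], [.z, .v, .o, .z, .z, .z, .z, .z, .z, .z, .z, .z, .z, .w], [.z, .z, .z, .o, .z, .z, .z, .z, .v, .z, .z, .z, .z, .z], [.z, .z, .z, .z, .o, .z, .z, .z, .z, .z, .v, .z, .z, .z], [.z, .z, .z, .z, .z, .o, .z, .z, .z, .z, .z, .v, .z, .z], [.z, .z, .z, .z, .z, .z, .o, .z, .z, .z, .z, .z, .z, .z], [.z, .z, .z, .z, .z, .z, .z, .o, .z, .z, .z, .z, .v, .z], [.z, .z, .z, .z, .z, .z, .z, .z, .o, .z, .z, .z, .z, .z], [.z, .z, .z, .z, .z, .z, .z, .z, .z, .o, .z, .z, .z, .z], [.z, .z, .z, .z, .z, .z, .z, .z, .z, .z, .o, .z, .z, .z], [.z, .z, .z, .z, .z, .z, .z, .z, .z, .z, .z, .o, .z, .z], [.z, .z, .z, .z, .z, .z, .z, .z, .z, .z, .z, .z, .o, .z], [.z, .z, .z, .z, .z, .z, .z, .z, .z, .z, .z, .z, .z, .o]]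

/-- the images of the generators -/
def gU (x : Cfsg.Agent.Helper28.SZ.Q1.Gen) : GLG := ((wordOf x).map xU).prod

theorem gU_mem (x : Cfsg.Agent.Helper28.SZ.Q1.Gen) : gU x ∈ Cfsg.Lie.chevG2.group GF4 := by
  apply Subgroup.list_prod_mem
  intro g hg
  obtain ⟨k, _, rfl⟩ := List.mem_map.mp hg
  exact xU_mem k

theorem val_prod (l : List ℕ) :
    (((l.map xU).prod : GLG) : Matrix I14 I14 GF4) = (l.map (fun k => toM (xLk k))).prod := by
  induction l with
  | nil => rfl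
  | cons a l ih =>
    rw [List.map_cons, List.prod_cons, List.map_cons, List.prod_cons, ← ih]
    rfl

theorem wChk : ∀ x : Cfsg.Agent.Helper28.SZ.Q1.Gen, wordChk xLk (wordOf x) (matOf x) = true := by
  intro x
  cases x <;> decide +kernel

theorem gU_val (x : Cfsg.Agent.Helper28.SZ.Q1.Gen) :
    ((gU x : GLG) : Matrix I14 I14 GF4) = toM (matOf x) := by
  rw [gU, val_prod]
  exact prod_eq_of_chk xLk xLk_length _ _ (wChk x)

/-- the matrix of the generator with a given number -/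
def gm (k : ℕ) : List (List GF4) := matOf (Cfsg.Agent.Helper28.SZQ1.gen k)

theorem matOf_length (x : Cfsg.Agent.Helper28.SZ.Q1.Gen) : (matOf x).length = 14 := by
  cases x <;> rfl

theorem gm_length (k : ℕ) : (gm k).length = 14 := matOf_length _

theorem gU_val_prod (l : List ℕ) :
    (((l.map (fun k => gU (Cfsg.Agent.Helper28.SZQ1.gen k))).prod : GLG) : Matrix I14 I14 GF4) =
      (l.map (fun k => toM (gm k))).prod := by
  induction l with
  | nil => rfl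
  | cons a l ih =>
    rw [List.map_cons, List.prod_cons, List.map_cons, List.prod_cons, ← ih, Units.val_mul, gU_val]
    rfl

theorem gU_prod_eq_one (l : List ℕ) (h : basisChk gm l = true) :
    (l.map (fun k => gU (Cfsg.Agent.Helper28.SZQ1.gen k))).prod = 1 := by
  apply Units.ext
  rw [gU_val_prod, prod_eq_one gm gm_length l h]
  rfl

theorem sqChk : allBelow 6 (fun k => basisChk gm [k, k]) = true := by decide +kernel

theorem gU_sq (x : Cfsg.Agent.Helper28.SZ.Q1.Gen) : gU x * gU x = 1 := by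
  have hc := Cfsg.Agent.Helper28.SZQ1.cert.hcode x
  have hk : Cfsg.Agent.Helper28.SZQ1.code x < 6 := hc.1
  have h := gU_prod_eq_one [Cfsg.Agent.Helper28.SZQ1.code x, Cfsg.Agent.Helper28.SZQ1.code x]
    ((allBelow_iff _ _).mp sqChk _ hk)
  rw [List.map_cons, List.map_cons, List.map_nil, List.prod_cons, List.prod_cons, List.prod_nil, mul_one,
    hc.2] at h
  exact h

theorem relChk1 : listAll (Cfsg.Agent.Helper28.SZQ1.pairs.map
    (fun p => Cfsg.Agent.Helper28.pairWord p.1 p.2.1 p.2.2)) (basisChk gm) = true := by decide +kernel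

theorem relChk2 : listAll Cfsg.Agent.Helper28.SZQ1.extraL (basisChk gm) = true := by decide +kernel

/-- the group presented on `a, …, f` -/
abbrev QG : Type := Cfsg.Spor.CoxPresented Cfsg.Agent.Helper28.SZ.Q1.Gen Cfsg.Agent.Helper28.SZ.Q1.edges
  Cfsg.Agent.Helper28.SZ.Q1.extra

/-- the homomorphism to the general linear group -/
noncomputable def phi : QG →* GLG :=
  PresentedGroup.toGroup (Cfsg.Agent.Helper28.SZQ1.cert.lift_rel gU gU_sq
    (fun l hl => gU_prod_eq_one l (by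
      rcases List.mem_append.mp hl with h | h
      · exact (listAll_iff _ _).mp relChk1 l h
      · exact (listAll_iff _ _).mp relChk2 l h)))

theorem phi_of (x : Cfsg.Agent.Helper28.SZ.Q1.Gen) : phi (PresentedGroup.of x) = gU x :=
  PresentedGroup.toGroup.of _

theorem phi_range_le : phi.range ≤ Cfsg.Lie.chevG2.group GF4 := by
  rw [phi, Cfsg.Agent.Helper28.toGroup_range, Subgroup.closure_le]
  rintro _ ⟨x, rfl⟩
  exact gU_mem x

/-- a matrix of the model is the matrix of an element of the image -/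
def InR (m : List (List GF4)) : Prop := ∃ g ∈ phi.range, ((g : GLG) : Matrix I14 I14 GF4) = toM m

theorem inR_gen (x : Cfsg.Agent.Helper28.SZ.Q1.Gen) : InR (matOf x) :=
  ⟨gU x, ⟨PresentedGroup.of x, phi_of x⟩, gU_val x⟩

theorem inR_mul {a b c : List (List GF4)} (ha : InR a) (hb : InR b) (h : prodChk a b c = true) :
    InR c := by
  obtain ⟨g, hg, hga⟩ := ha
  obtain ⟨g', hg', hgb⟩ := hb
  refine ⟨g * g', mul_mem hg hg', ?_⟩
  rw [Units.val_mul, hga, hgb]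
  exact mul_of_chk a b c h

end Cfsg.Agent.Helper28.G2
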