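import Cfsg.Agent.Helper28.G2.Surj
import Cfsg.Agent.Helper28.G2.Abs
import Cfsg.Agent.Helper28.SZ.Simple
import Cfsg.Agent.S1059

/-!
# The subgroup generated by `a, …, f` in the presented group Suz is the Chevalley group `G₂(4)` (helper28)

The group `QG` presented on `a, …, f` has order at most `416 * 280 * 2160 = 251596800`; it maps onto the
subgroup of Suz generated by `a, …, f`, of that order, and onto the Chevalley group of type `G₂` over the
field with four elements, of that order too (`Cfsg.Agent.S1059.result`).  So both maps are isomorphisms.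
-/

set_option autoImplicit false

namespace Cfsg.Agent.Helper28.G2

open Cfsg.Agent.Helper28 Cfsg.Spor

theorem card_chev : Nat.card (Cfsg.Lie.chevG2.group GF4) = 251596800 := by
  have h := Cfsg.Agent.S1059.result (F := GF4) (q := 4) GF4.card_eq
  rw [h]
  norm_num

theorem finite_QG : Finite QG := Abs.card_le.1

theorem card_QG_le : Nat.card QG ≤ 251596800 := le_trans Abs.card_le.2 (by norm_num)

/-- the map onto the Chevalley group -/
noncomputable def phiG : QG →* Cfsg.Lie.chevG2.group GF4 :=
  phi.codRestrict _ (fun x => by rw [← phi_range]; exact ⟨x, rfl⟩)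

theorem phiG_surjective : Function.Surjective phiG := by
  rintro ⟨y, hy⟩
  rw [← phi_range] at hy
  obtain ⟨x, rfl⟩ := hy
  exact ⟨x, rfl⟩

theorem phiG_bijective : Function.Bijective phiG := by
  have := finite_QG
  apply phiG_surjective.bijective_of_nat_card_le
  rw [card_chev]
  exact card_QG_le

/-- the subgroup of Suz generated by `a, …, f` -/
abbrev HS : Subgroup Suz :=
  (Subgroup.closure ({Suz.a, Suz.b, Suz.c, Suz.d, Suz.e, Suz.f} : Set (FreeGroup Suz.Gen))).map
    (PresentedGroup.mk (coxRelators Suz.edges ∪ {r | r ∈ Suz.extra}))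

theorem card_HS : Nat.card HS = 251596800 := by
  have hmul := HS.card_mul_index
  rw [Cfsg.Agent.Helper28.C1680.cert.index_eq, Cfsg.Agent.Helper28.SZ.card_eq] at hmul
  exact Nat.eq_of_mul_eq_mul_right (by norm_num : 0 < 1782) (hmul.trans (by norm_num))

theorem range_f1 : Cfsg.Agent.Helper28.SZ.f1.range = HS := Cfsg.Agent.Helper28.SZ.range1

/-- the map onto the subgroup of Suz -/
noncomputable def psiH : QG →* HS :=
  Cfsg.Agent.Helper28.SZ.f1.codRestrict _ (fun x => by
    rw [← range_f1]; exact ⟨x, rfl⟩)

theorem psiH_surjective : Function.Surjective psiH := by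
  rintro ⟨y, hy⟩
  rw [← range_f1] at hy
  obtain ⟨x, rfl⟩ := hy
  exact ⟨x, rfl⟩

theorem psiH_bijective : Function.Bijective psiH := by
  have := finite_QG
  apply psiH_surjective.bijective_of_nat_card_le
  rw [card_HS]
  exact card_QG_le

/-- The subgroup of Suz generated by `a, …, f` is the Chevalley group of type `G₂` over the field with
four elements. -/
noncomputable def isoHS : HS ≃* Cfsg.Lie.chevG2.group GF4 :=
  (MulEquiv.ofBijective psiH psiH_bijective).symm.trans (MulEquiv.ofBijective phiG phiG_bijective)

end Cfsg.Agent.Helper28.G2
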