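import Mathlib
import Cfsg.Prelude.Def_ChevG2
import Cfsg.Agent.Helper28.SP4.GF4
import Cfsg.Agent.Helper28.TCP

/-!
# A computable model of `14 × 14` matrices over the field with four elements (helper28)

Vectors are lists of field elements, matrices are lists of rows; `toV` and `toM` turn them into Mathlib
vectors and matrices indexed by `Fin 2 ⊕ Fin 12`, the index type of the Chevalley group of type `G₂`.
Vectors are also coded by numbers, so that a product of matrices can be followed on a vector by kernel
arithmetic.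
-/

set_option autoImplicit false

namespace Cfsg.Agent.Helper28.G2

open Cfsg.Agent.Helper28 Matrix

/-- the index type -/
abbrev I14 : Type := Cfsg.Lie.chevG2.Idx

/-- the position of an index -/
def pos : I14 → ℕ
  | .inl i => i.val
  | .inr r => 2 + r.val

/-- the product of a row and a vector, on the first `n` places -/
def dotN : ℕ → List GF4 → List GF4 → GF4
  | 0, _, _ => GF4.z
  | _ + 1, [], _ => GF4.z
  | _ + 1, _ :: _, [] => GF4.z
  | n + 1, a :: r, b :: v => GF4.add (GF4.mul a b) (dotN n r v)

/-- the product of a matrix and a vector -/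
def mv (m : List (List GF4)) (v : List GF4) : List GF4 := m.map (fun r => dotN 14 r v)

/-- a vector as a function -/
def toV (v : List GF4) : I14 → GF4 := fun i => v.getD (pos i) GF4.z

/-- a matrix of the model as a matrix -/
def toM (m : List (List GF4)) : Matrix I14 I14 GF4 :=
  Matrix.of fun i j => (m.getD (pos i) []).getD (pos j) GF4.z

theorem dotN_nil_left (n : ℕ) (v : List GF4) : dotN n [] v = 0 := by
  cases n <;> rfl

theorem dotN_nil_right (n : ℕ) (r : List GF4) : dotN n r [] = 0 := by
  cases n with
  | zero => rfl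
  | succ n => cases r <;> rfl

theorem dotN_eq (n : ℕ) (r v : List GF4) :
    dotN n r v = ∑ k : Fin n, r.getD k.val GF4.z * v.getD k.val GF4.z := by
  induction n generalizing r v with
  | zero => simp [dotN]; rfl
  | succ n ih =>
    cases r with
    | nil =>
      rw [dotN_nil_left]
      symm
      apply Finset.sum_eq_zero
      intro k _
      show (0 : GF4) * _ = 0
      exact zero_mul _
    | cons a r =>
      cases v with
      | nil =>
        rw [dotN_nil_right]
        symm
        apply Finset.sum_eq_zero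
        intro k _
        show _ * (0 : GF4) = 0
        exact mul_zero _
      | cons b v =>
        rw [Fin.sum_univ_succ]
        show a * b + dotN n r v = _
        rw [ih]
        rfl

theorem sum_pos (F : ℕ → GF4) : ∑ j : I14, F (pos j) = ∑ k : Fin 14, F k.val := by
  show ∑ j : Fin 2 ⊕ Fin 12, F (pos j) = ∑ k : Fin 14, F k.val
  rw [Fintype.sum_sum_type]
  simp only [Fin.sum_univ_succ, pos, Fin.sum_univ_zero]
  simp [add_assoc]

theorem toM_mulVec (m : List (List GF4)) (v : List GF4) : toM m *ᵥ toV v = toV (mv m v) := by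
  funext i
  show ∑ j : I14, (m.getD (pos i) []).getD (pos j) GF4.z * v.getD (pos j) GF4.z = (mv m v).getD (pos i) GF4.z
  rw [sum_pos (fun k => (m.getD (pos i) []).getD k GF4.z * v.getD k GF4.z), ← dotN_eq]
  have h0 : GF4.z = (fun r => dotN 14 r v) [] := rfl
  rw [mv, h0, List.getD_map]

/-- the digit of a field element -/
def dig : GF4 → ℕ
  | .z => 0
  | .o => 1
  | .w => 2
  | .v => 3

/-- the field element of a digit -/
def ofDig (d : ℕ) : GF4 :=
  cond (Nat.beq d 0) GF4.z (cond (Nat.beq d 1) GF4.o (cond (Nat.beq d 2) GF4.w GF4.v))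

theorem dig_lt (x : GF4) : dig x < 4 := by cases x <;> decide

theorem ofDig_dig (x : GF4) : ofDig (dig x) = x := by cases x <;> rfl

/-- the code of a vector -/
def codeL : List GF4 → ℕ
  | [] => 0
  | x :: l => dig x + 4 * codeL l

/-- the vector of length `n` with a given code -/
def vecN : ℕ → ℕ → List GF4
  | 0, _ => []
  | n + 1, c => ofDig (c % 4) :: vecN n (c / 4)

theorem vecN_codeL (l : List GF4) : vecN l.length (codeL l) = l := by
  induction l with
  | nil => rfl
  | cons x l ih =>
    have hx := dig_lt x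
    show ofDig ((dig x + 4 * codeL l) % 4) :: vecN l.length ((dig x + 4 * codeL l) / 4) = x :: l
    have e1 : (dig x + 4 * codeL l) % 4 = dig x := by omega
    have e2 : (dig x + 4 * codeL l) / 4 = codeL l := by omega
    rw [e1, e2, ofDig_dig, ih]

theorem mv_length (m : List (List GF4)) (v : List GF4) : (mv m v).length = m.length := by
  simp [mv]

/-- the action of a matrix on the codes of the vectors -/
def actC (m : List (List GF4)) (c : ℕ) : ℕ := codeL (mv m (vecN 14 c))

theorem toM_actC (m : List (List GF4)) (hm : m.length = 14) (c : ℕ) :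
    toM m *ᵥ toV (vecN 14 c) = toV (vecN 14 (actC m c)) := by
  rw [toM_mulVec, actC]
  have h := vecN_codeL (mv m (vecN 14 c))
  rw [mv_length, hm] at h
  rw [h]

theorem pos_lt (i : I14) : pos i < 14 := by
  rcases i with i | r
  · have h : i.val < 2 := i.isLt
    show i.val < 14
    omega
  · have h : r.val < 12 := r.isLt
    show 2 + r.val < 14
    omega

theorem pos_injective : Function.Injective pos := by
  intro i j h
  rcases i with i | r <;> rcases j with j | s
  · have h' : i.val = j.val := h
    rw [Fin.ext h']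
  · have h1 : i.val < 2 := i.isLt
    have h' : i.val = 2 + s.val := h
    omega
  · have h1 : j.val < 2 := j.isLt
    have h' : 2 + r.val = j.val := h
    omega
  · have h' : 2 + r.val = 2 + s.val := h
    have h2 : r.val = s.val := by omega
    rw [Fin.ext h2]

theorem basis_getD : ∀ p, p < 14 → ∀ q, q < 14 →
    (vecN 14 (4 ^ p)).getD q GF4.z = if q = p then GF4.o else GF4.z := by decide

theorem toV_basis (j : I14) : toV (vecN 14 (4 ^ pos j)) = Pi.single j 1 := by
  funext i
  show (vecN 14 (4 ^ pos j)).getD (pos i) GF4.z = _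
  rw [basis_getD _ (pos_lt j) _ (pos_lt i), Pi.single_apply]
  by_cases h : i = j
  · rw [if_pos h, if_pos (congrArg pos h)]; rfl
  · rw [if_neg h, if_neg (fun h' => h (pos_injective h'))]; rfl

theorem eq_of_basis (M N : Matrix I14 I14 GF4)
    (h : ∀ p, p < 14 → M *ᵥ toV (vecN 14 (4 ^ p)) = N *ᵥ toV (vecN 14 (4 ^ p))) : M = N := by
  ext i j
  have h1 := congrFun (h (pos j) (pos_lt j)) i
  rw [toV_basis, Matrix.mulVec_single_one, Matrix.mulVec_single_one] at h1
  exact h1

/-- the action of the matrix with a given number on the codes -/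
noncomputable def stepV (gm : ℕ → List (List GF4)) (k c : ℕ) : ℕ := actC (gm k) c

theorem prod_mulVec (gm : ℕ → List (List GF4)) (hlen : ∀ k, (gm k).length = 14) (l : List ℕ) (c : ℕ) :
    (l.map (fun k => toM (gm k))).prod *ᵥ toV (vecN 14 c) = toV (vecN 14 (walkA (stepV gm) l c)) := by
  induction l with
  | nil => rw [List.map_nil, List.prod_nil, Matrix.one_mulVec, walkA_nil]
  | cons a l ih =>
    rw [List.map_cons, List.prod_cons, ← Matrix.mulVec_mulVec, ih, toM_actC _ (hlen a), walkA_cons]
    rfl

/-- a word fixes the codes of the basis vectors -/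
noncomputable def basisChk (gm : ℕ → List (List GF4)) (l : List ℕ) : Bool :=
  allBelow 14 (fun p => Nat.beq (walkA (stepV gm) l (4 ^ p)) (4 ^ p))

theorem prod_eq_one (gm : ℕ → List (List GF4)) (hlen : ∀ k, (gm k).length = 14) (l : List ℕ)
    (h : basisChk gm l = true) : (l.map (fun k => toM (gm k))).prod = 1 := by
  apply eq_of_basis
  intro p hp
  rw [prod_mulVec gm hlen, Nat.eq_of_beq_eq_true ((allBelow_iff _ _).mp h p hp), Matrix.one_mulVec]

/-- a word acts on the basis vectors as a matrix does -/
noncomputable def wordChk (gm : ℕ → List (List GF4)) (l : List ℕ) (m : List (List GF4)) : Bool :=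
  and (Nat.beq m.length 14)
    (allBelow 14 (fun p => Nat.beq (walkA (stepV gm) l (4 ^ p)) (actC m (4 ^ p))))

theorem prod_eq_of_chk (gm : ℕ → List (List GF4)) (hlen : ∀ k, (gm k).length = 14) (l : List ℕ)
    (m : List (List GF4)) (h : wordChk gm l m = true) : (l.map (fun k => toM (gm k))).prod = toM m := by
  rw [wordChk, Bool.and_eq_true] at h
  have hm : m.length = 14 := Nat.eq_of_beq_eq_true h.1
  apply eq_of_basis
  intro p hp
  rw [prod_mulVec gm hlen, Nat.eq_of_beq_eq_true ((allBelow_iff _ _).mp h.2 p hp), toM_actC m hm]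

/-- the product of two matrices is a third one -/
noncomputable def prodChk (a b c : List (List GF4)) : Bool :=
  and (and (Nat.beq a.length 14) (Nat.beq b.length 14)) (and (Nat.beq c.length 14)
    (allBelow 14 (fun p => Nat.beq (actC a (actC b (4 ^ p))) (actC c (4 ^ p)))))

theorem mul_of_chk (a b c : List (List GF4)) (h : prodChk a b c = true) : toM a * toM b = toM c := by
  rw [prodChk, Bool.and_eq_true, Bool.and_eq_true, Bool.and_eq_true] at h
  have ha : a.length = 14 := Nat.eq_of_beq_eq_true h.1.1
  have hb : b.length = 14 := Nat.eq_of_beq_eq_true h.1.2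
  have hc : c.length = 14 := Nat.eq_of_beq_eq_true h.2.1
  apply eq_of_basis
  intro p hp
  rw [← Matrix.mulVec_mulVec, toM_actC b hb, toM_actC a ha,
    Nat.eq_of_beq_eq_true ((allBelow_iff _ _).mp h.2.2 p hp), toM_actC c hc]

/-- the identity matrix of the model -/
def idL : List (List GF4) :=
  [[.o, .z, .z, .z, .z, .z, .z, .z, .z, .z, .z, .z, .z, .z], [.z, .o, .z, .z, .z, .z, .z, .z, .z, .z, .z, .z, .z, .z],
   [.z, .z, .o, .z, .z, .z, .z, .z, .z, .z, .z, .z, .z, .z], [.z, .z, .z, .o, .z, .z, .z, .z, .z, .z, .z, .z, .z, .z],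
   [.z, .z, .z, .z, .o, .z, .z, .z, .z, .z, .z, .z, .z, .z], [.z, .z, .z, .z, .z, .o, .z, .z, .z, .z, .z, .z, .z, .z],
   [.z, .z, .z, .z, .z, .z, .o, .z, .z, .z, .z, .z, .z, .z], [.z, .z, .z, .z, .z, .z, .z, .o, .z, .z, .z, .z, .z, .z],
   [.z, .z, .z, .z, .z, .z, .z, .z, .o, .z, .z, .z, .z, .z], [.z, .z, .z, .z, .z, .z, .z, .z, .z, .o, .z, .z, .z, .z],
   [.z, .z, .z, .z, .z, .z, .z, .z, .z, .z, .o, .z, .z, .z], [.z, .z, .z, .z, .z, .z, .z, .z, .z, .z, .z, .o, .z, .z],
   [.z, .z, .z, .z, .z, .z, .z, .z, .z, .z, .z, .z, .o, .z], [.z, .z, .z, .z, .z, .z, .z, .z, .z, .z, .z, .z, .z, .o]]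

theorem toM_idL : toM idL = 1 := by
  apply eq_of_basis
  intro p hp
  rw [toM_actC idL rfl, Matrix.one_mulVec]
  have h : ∀ p, p < 14 → actC idL (4 ^ p) = 4 ^ p := by decide
  rw [h p hp]

end Cfsg.Agent.Helper28.G2
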