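import Cfsg.Agent.Helper28.G2.Slp2

/-!
# The image of the presented group is the Chevalley group of type `G₂` over the field with four elements (helper28; generated)
-/

set_option autoImplicit false

namespace Cfsg.Agent.Helper28.G2

open Cfsg.Agent.Helper28 Matrix

theorem tg0 : InR (xLk 0) := by
  have h : xLk 0 = N868 := by decide +kernel
  rw [h]
  exact n868
theorem tg1 : InR (xLk 1) := by
  have h : xLk 1 = (matOf .a) := by decide +kernel
  rw [h]
  exact (inR_gen .a)
theorem tg2 : InR (xLk 2) := by
  have h : xLk 2 = N2786 := by decide +kernel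
  rw [h]
  exact n2786
theorem tg3 : InR (xLk 3) := by
  have h : xLk 3 = N3072 := by decide +kernel
  rw [h]
  exact n3072
theorem tg4 : InR (xLk 4) := by
  have h : xLk 4 = N3080 := by decide +kernel
  rw [h]
  exact n3080
theorem tg5 : InR (xLk 5) := by
  have h : xLk 5 = N3082 := by decide +kernel
  rw [h]
  exact n3082
theorem tg6 : InR (xLk 6) := by
  have h : xLk 6 = N3087 := by decide +kernel
  rw [h]
  exact n3087
theorem tg7 : InR (xLk 7) := by
  have h : xLk 7 = N3095 := by decide +kernel
  rw [h]
  exact n3095
theorem tg8 : InR (xLk 8) := by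
  have h : xLk 8 = N3097 := by decide +kernel
  rw [h]
  exact n3097
theorem tg9 : InR (xLk 9) := by
  have h : xLk 9 = N3104 := by decide +kernel
  rw [h]
  exact n3104
theorem tg10 : InR (xLk 10) := by
  have h : xLk 10 = N3110 := by decide +kernel
  rw [h]
  exact n3110
theorem tg11 : InR (xLk 11) := by
  have h : xLk 11 = N3112 := by decide +kernel
  rw [h]
  exact n3112
theorem tg12 : InR (xLk 12) := by
  have h : xLk 12 = N3113 := by decide +kernel
  rw [h]
  exact n3113
theorem tg13 : InR (xLk 13) := by
  have h : xLk 13 = N3117 := by decide +kernel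
  rw [h]
  exact n3117
theorem tg14 : InR (xLk 14) := by
  have h : xLk 14 = N3119 := by decide +kernel
  rw [h]
  exact n3119
theorem tg15 : InR (xLk 15) := by
  have h : xLk 15 = N3124 := by decide +kernel
  rw [h]
  exact n3124
theorem tg16 : InR (xLk 16) := by
  have h : xLk 16 = N3132 := by decide +kernel
  rw [h]
  exact n3132
theorem tg17 : InR (xLk 17) := by
  have h : xLk 17 = N3134 := by decide +kernel
  rw [h]
  exact n3134
theorem tg18 : InR (xLk 18) := by
  have h : xLk 18 = N3141 := by decide +kernel
  rw [h]
  exact n3141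
theorem tg19 : InR (xLk 19) := by
  have h : xLk 19 = N3149 := by decide +kernel
  rw [h]
  exact n3149
theorem tg20 : InR (xLk 20) := by
  have h : xLk 20 = N3151 := by decide +kernel
  rw [h]
  exact n3151
theorem tg21 : InR (xLk 21) := by
  have h : xLk 21 = N3152 := by decide +kernel
  rw [h]
  exact n3152
theorem tg22 : InR (xLk 22) := by
  have h : xLk 22 = N3156 := by decide +kernel
  rw [h]
  exact n3156
theorem tg23 : InR (xLk 23) := by
  have h : xLk 23 = N3158 := by decide +kernel
  rw [h]
  exact n3158
theorem tg24 : InR (xLk 24) := by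
  have h : xLk 24 = N3163 := by decide +kernel
  rw [h]
  exact n3163
theorem tg25 : InR (xLk 25) := by
  have h : xLk 25 = N3169 := by decide +kernel
  rw [h]
  exact n3169
theorem tg26 : InR (xLk 26) := by
  have h : xLk 26 = N3171 := by decide +kernel
  rw [h]
  exact n3171
theorem tg27 : InR (xLk 27) := by
  have h : xLk 27 = N3176 := by decide +kernel
  rw [h]
  exact n3176
theorem tg28 : InR (xLk 28) := by
  have h : xLk 28 = N3182 := by decide +kernel
  rw [h]
  exact n3182
theorem tg29 : InR (xLk 29) := by
  have h : xLk 29 = N3184 := by decide +kernel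
  rw [h]
  exact n3184
theorem tg30 : InR (xLk 30) := by
  have h : xLk 30 = N3191 := by decide +kernel
  rw [h]
  exact n3191
theorem tg31 : InR (xLk 31) := by
  have h : xLk 31 = N3199 := by decide +kernel
  rw [h]
  exact n3199
theorem tg32 : InR (xLk 32) := by
  have h : xLk 32 = N3201 := by decide +kernel
  rw [h]
  exact n3201
theorem tg33 : InR (xLk 33) := by
  have h : xLk 33 = N3204 := by decide +kernel
  rw [h]
  exact n3204
theorem tg34 : InR (xLk 34) := by
  have h : xLk 34 = N3206 := by decide +kernel
  rw [h]
  exact n3206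
theorem tg35 : InR (xLk 35) := by
  have h : xLk 35 = N3208 := by decide +kernel
  rw [h]
  exact n3208

theorem tg (k : ℕ) (hk : k < 36) : InR (xLk k) := by
  interval_cases k
  · exact tg0
  · exact tg1
  · exact tg2
  · exact tg3
  · exact tg4
  · exact tg5
  · exact tg6
  · exact tg7
  · exact tg8
  · exact tg9
  · exact tg10
  · exact tg11
  · exact tg12
  · exact tg13
  · exact tg14
  · exact tg15
  · exact tg16
  · exact tg17
  · exact tg18
  · exact tg19
  · exact tg20
  · exact tg21
  · exact tg22
  · exact tg23
  · exact tg24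
  · exact tg25
  · exact tg26
  · exact tg27
  · exact tg28
  · exact tg29
  · exact tg30
  · exact tg31
  · exact tg32
  · exact tg33
  · exact tg34
  · exact tg35

/-- The image of the presented group is the Chevalley group. -/
theorem phi_range : phi.range = Cfsg.Lie.chevG2.group GF4 := by
  apply le_antisymm phi_range_le
  rw [Cfsg.Lie.ChevalleyDatum.group, Subgroup.closure_le]
  rintro g ⟨r, t, hg⟩
  rcases xMat_cases r t with h | ⟨k, hk, h⟩
  · have h1 : g = 1 := by
      apply Units.ext
      rw [hg, h]
      rfl
    rw [h1]
    exact one_mem _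
  · obtain ⟨g', hg', hval⟩ := tg k hk
    have h1 : g = g' := by
      apply Units.ext
      rw [hg, h, hval]
    rw [h1]
    exact hg'

end Cfsg.Agent.Helper28.G2
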